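import Mathlib
import Cfsg.Agent.H506.PiDih
import Cfsg.Agent.H506.PiSmall
import Cfsg.Agent.S0205
import Cfsg.Agent.S0483
import Cfsg.Agent.Walter.StepAll
import Cfsg.Agent.Walter.TorusJR

/-!
# `π`-homogeneous groups with abelian or dihedral Sylow 2-subgroups, `π` a set of odd primes
-/

set_option autoImplicit false

namespace Cfsg.Agent.H506.PiAbDih

open Subgroup Cfsg.Agent.H506.PiHomog Cfsg.Agent.H506.PiReal Cfsg.Agent.H506.PiCyc
  Cfsg.Agent.H506.PiSmall Cfsg.Agent.H506.PiDih

universe u

/-- A `π`-group, `2 ∉ π`, is solvable. -/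
theorem solvable_of_piNum {π : Set ℕ} (h2 : 2 ∉ π) {G : Type*} [Group G] [Finite G]
    (h : PiNum π (Nat.card G)) : Group.IsSolvable G := by
  apply Cfsg.Agent.S0205.result
  by_contra hodd
  rw [Nat.not_odd_iff_even] at hodd
  exact h2 (h 2 Nat.prime_two hodd.two_dvd)

/-- All 2-subgroups are in the class `Good`. -/
def GoodTwo (G : Type u) [Group G] : Prop := ∀ Q : Subgroup G, IsPGroup 2 Q → Good Q

theorem GoodTwo.subgroup {G : Type u} [Group G] (h : GoodTwo G) (H : Subgroup G) : GoodTwo H := by
  intro Q hQ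
  let e := Q.equivMapOfInjective H.subtype H.subtype_injective
  exact (h (Q.map H.subtype) (hQ.of_equiv e)).of_injective e.toMonoidHom e.injective

theorem GoodTwo.quotient {G : Type u} [Group G] [Finite G] (h : GoodTwo G) (N : Subgroup G)
    [N.Normal] : GoodTwo (G ⧸ N) := by
  have : Fact (Nat.Prime 2) := ⟨Nat.prime_two⟩
  intro Q hQ
  set M := Q.comap (QuotientGroup.mk' N) with hM
  let f : M →* Q := (QuotientGroup.mk' N).subgroupComap Q
  have hf : Function.Surjective f :=
    MonoidHom.subgroupComap_surjective_of_surjective _ _ (QuotientGroup.mk'_surjective N)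
  obtain ⟨S⟩ : Nonempty (Sylow 2 M) := inferInstance
  have hS : (S.mapSurjective hf : Subgroup Q) = ⊤ := by
    have h1 : IsPGroup 2 (⊤ : Subgroup Q) := hQ.of_equiv Subgroup.topEquiv.symm
    exact ((S.mapSurjective hf).3 h1 le_top).symm
  have hg : Good S := (h.subgroup M) S S.2
  have hsurj : Function.Surjective (f.comp (S : Subgroup M).subtype) := by
    intro y
    have h2 : y ∈ (S.mapSurjective hf : Subgroup Q) := by rw [hS]; trivial
    obtain ⟨x, hx, hxy⟩ := h2
    exact ⟨⟨x, hx⟩, hxy⟩
  exact hg.of_surjective _ hsurj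

/-- The alternating group of degree 7. -/
theorem alt_seven {G : Type*} [Group G] [Finite G] [IsSimpleGroup G] (hna : ¬ IsMulCommutative G)
    (e : G ≃* alternatingGroup (Fin 7)) {π : Set ℕ} (h2 : 2 ∉ π) (hG : Homog π G) :
    PiNum πᶜ (Nat.card G) := by
  have hcard : Nat.card G = 2520 := by
    have h := two_mul_nat_card_alternatingGroup (α := Fin 7)
    rw [Nat.card_perm, Nat.card_fin] at h
    rw [Nat.card_congr e.toEquiv]
    have h7 : Nat.factorial 7 = 5040 := by decide
    omega
  have h3 : 3 ∉ π := by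
    intro h3
    let y : alternatingGroup (Fin 7) := ⟨Equiv.swap 0 1 * Equiv.swap 1 2, by
      rw [Equiv.Perm.mem_alternatingGroup]; decide⟩
    let g : alternatingGroup (Fin 7) := ⟨Equiv.swap 0 1 * Equiv.swap 3 4, by
      rw [Equiv.Perm.mem_alternatingGroup]; decide⟩
    have hy : orderOf y = 3 := by
      have : Fact (Nat.Prime 3) := ⟨Nat.prime_three⟩
      apply orderOf_eq_prime
      · apply Subtype.ext; decide
      · intro h
        have := congrArg Subtype.val h
        revert this
        decide
    have hg : g * y * g⁻¹ = y⁻¹ := by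
      apply Subtype.ext; decide
    exact not_real (hG.of_mulEquiv e) h2 Nat.prime_three h3 hy hg
  refine piNum_of_cyclic hna hG fun p hp hpπ hpd P => ?_
  have hpp : p.Prime := hp.out
  rw [hcard] at hpd
  have h4 : p = 5 ∨ p = 7 := by
    have h5 : (2520 : ℕ) = 2 ^ 3 * 3 ^ 2 * 5 * 7 := by norm_num
    rw [h5] at hpd
    rcases (Nat.Prime.dvd_mul hpp).1 hpd with h | h
    · rcases (Nat.Prime.dvd_mul hpp).1 h with h | h
      · rcases (Nat.Prime.dvd_mul hpp).1 h with h | h
        · rw [(Nat.prime_dvd_prime_iff_eq hpp Nat.prime_two).1 (hpp.dvd_of_dvd_pow h)] at hpπ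
          exact absurd hpπ h2
        · rw [(Nat.prime_dvd_prime_iff_eq hpp Nat.prime_three).1 (hpp.dvd_of_dvd_pow h)] at hpπ
          exact absurd hpπ h3
      · left; exact (Nat.prime_dvd_prime_iff_eq hpp (by norm_num)).1 h
    · right; exact (Nat.prime_dvd_prime_iff_eq hpp (by norm_num)).1 h
  have hP := P.card_eq_multiplicity
  rw [hcard] at hP
  have h6 : Nat.card P = p := by
    rcases h4 with rfl | rfl
    · rw [hP]
      have : (2520 : ℕ).factorization 5 = 1 := by
        rw [show (2520 : ℕ) = 5 * 504 by norm_num, Nat.factorization_mul (by norm_num) (by norm_num)]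
        simp [Nat.factorization_eq_zero_of_not_dvd (show ¬ 5 ∣ 504 by norm_num),
          Nat.Prime.factorization_self (show Nat.Prime 5 by norm_num)]
      rw [this]; norm_num
    · rw [hP]
      have : (2520 : ℕ).factorization 7 = 1 := by
        rw [show (2520 : ℕ) = 7 * 360 by norm_num, Nat.factorization_mul (by norm_num) (by norm_num)]
        simp [Nat.factorization_eq_zero_of_not_dvd (show ¬ 7 ∣ 360 by norm_num),
          Nat.Prime.factorization_self (show Nat.Prime 7 by norm_num)]
      rw [this]; norm_num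
  exact isCyclic_of_prime_card h6

/-- The groups of Janko–Ree type. -/
theorem janko_ree {G : Type u} [Group G] [Finite G] [IsSimpleGroup G] (hna : ¬ IsMulCommutative G)
    (hJ : Cfsg.Agent.Walter.Types.IsJR G) {π : Set ℕ} (h2 : 2 ∉ π) (hG : Homog π G) :
    PiNum πᶜ (Nat.card G) := by
  have hJ' := hJ
  obtain ⟨⟨S, hS, -⟩, F, _, _, hF, h5, hc⟩ := hJ'
  obtain ⟨t, ht⟩ : ∃ t : G, orderOf t = 2 := by
    have : Fact (Nat.Prime 2) := ⟨Nat.prime_two⟩
    apply exists_prime_orderOf_dvd_card'
    have h1 : Nat.card (S : Subgroup G) ∣ Nat.card G := (S : Subgroup G).card_subgroup_dvd_card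
    rw [hS] at h1
    omega
  obtain ⟨e⟩ := hc t ht
  -- the centralizer is a `π'`-group
  have hC : PiNum πᶜ (Nat.card (centralizer ({t} : Set G))) := by
    have h3 : Homog π (Multiplicative (ZMod 2) × Matrix.ProjectiveSpecialLinearGroup (Fin 2) F) :=
      (hG.subgroup (centralizer ({t} : Set G))).of_mulEquiv e
    have h4 : Homog π (Matrix.ProjectiveSpecialLinearGroup (Fin 2) F) := by
      let f : Matrix.ProjectiveSpecialLinearGroup (Fin 2) F ≃*
          (MonoidHom.inr (Multiplicative (ZMod 2)) (Matrix.ProjectiveSpecialLinearGroup (Fin 2) F)).range :=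
        MonoidHom.ofInjective (fun a b hab => (Prod.mk.inj hab).2)
      exact (h3.subgroup _).of_mulEquiv f.symm
    have h6 := PiPSL.psl_two (F := F) (by omega) h2 h4
    rw [Nat.card_congr e.toEquiv, Nat.card_prod]
    refine PiNum.mul ?_ h6
    rw [Nat.card_congr Multiplicative.toAdd, Nat.card_zmod]
    intro p hp hpd
    rw [(Nat.prime_dvd_prime_iff_eq hp Nat.prime_two).1 hpd]
    exact h2
  refine piNum_of_cyclic hna hG fun p hp hpπ hpd P => ?_
  exact (Walter.TorusJR.torus_of_isJR Walter.Final.centThm Walter.Final.reeThm hna hJ ht hpd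
    (fun h => hC p hp.out h hpπ) P).1

/-- **Theorem.** -/
theorem closedPr_of_goodTwo {π : Set ℕ} {G : Type u} [Group G] [Finite G] (h2 : 2 ∉ π)
    (hP : GoodTwo G) (hG : Homog π G) : ClosedPr π G := by
  refine main_reduction π (fun G _ => GoodTwo G) (fun G _ _ h H => h.subgroup H)
    (fun G _ _ h K _ _ => h.quotient K) (fun G _ _ h N _ _ _ => h.quotient N) ?_ ?_
    G hP hG
  · intro G _ _ _ K _ _ hK2
    exact Or.inr (solvable_of_piNum h2 hK2)
  · intro G _ _ hs hna h hh hcl hc1 hc2
    apply hc2
    have hp2 : Fact (Nat.Prime 2) := ⟨Nat.prime_two⟩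
    have hPSL : ∀ (F : Type) [Field F] [Fintype F], 4 ≤ Fintype.card F →
        Nonempty (G ≃* Matrix.ProjectiveSpecialLinearGroup (Fin 2) F) → PiNum πᶜ (Nat.card G) := by
      intro F _ _ h4 ⟨e⟩
      rw [Nat.card_congr e.toEquiv]
      exact PiPSL.psl_two h4 h2 (hh.of_mulEquiv e)
    obtain ⟨S⟩ : Nonempty (Sylow 2 G) := inferInstance
    rcases (h S S.2).comm_or_dihedral with hS | ⟨n, hn, hS⟩
    · -- abelian
      rcases Walter.Main.wType_of_step Walter.StepAll.step G hs hna S
        (fun a ha b hb => congrArg Subtype.val (hS ⟨a, ha⟩ ⟨b, hb⟩)) with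
        ⟨F, _, _, n, hn, hF, he⟩ | ⟨F, _, _, -, h5, he⟩ | hJ
      · refine hPSL F ?_ he
        rw [hF]
        calc 4 = 2 ^ 2 := by norm_num
          _ ≤ 2 ^ n := Nat.pow_le_pow_right (by norm_num) hn
      · exact hPSL F (by omega) he
      · exact janko_ree hna hJ h2 hh
    · -- dihedral
      have hperf : Group.IsPerfect G := by
        refine ⟨?_⟩
        rcases (inferInstance : (commutator G).Normal).eq_bot_or_eq_top with h | h
        · exfalso
          apply hna
          refine ⟨⟨fun a b => ?_⟩⟩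
          have h1 : a * b * a⁻¹ * b⁻¹ ∈ commutator G :=
            Subgroup.commutator_mem_commutator (Subgroup.mem_top _) (Subgroup.mem_top _)
          rw [h, Subgroup.mem_bot] at h1
          exact mul_inv_eq_iff_eq_mul.1 (mul_inv_eq_one.1 h1)
        · exact h
      have hequiv : ∀ {T : Type} [Group T] [Nontrivial T], Nonempty (G ⧸ Cfsg.oddCore G ≃* T) →
          Nonempty (G ≃* T) := by
        intro T _ _ ⟨e⟩
        have hn : (Cfsg.oddCore G).Normal := inferInstance
        rcases hn.eq_bot_or_eq_top with h | h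
        · exact ⟨(QuotientGroup.quotientBot.symm.trans
            (QuotientGroup.quotientMulEquivOfEq h.symm)).trans e⟩
        · exfalso
          obtain ⟨x, y, hxy⟩ := exists_pair_ne T
          apply hxy
          apply e.symm.injective
          have hall : ∀ z : G ⧸ Cfsg.oddCore G, z = 1 := by
            intro z
            obtain ⟨w, rfl⟩ := QuotientGroup.mk'_surjective _ z
            exact (QuotientGroup.eq_one_iff w).2 (by rw [h]; trivial)
          rw [hall (e.symm x), hall (e.symm y)]
      rcases S0483.result S n hn hS with ⟨F, _, _, hodd, h3, he⟩ | he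
      · refine hPSL F (by omega) ?_
        have hnt : Nontrivial (Matrix.ProjectiveSpecialLinearGroup (Fin 2) F) := by
          have h4 := Cfsg.Agent.ClassicalGeometry.PSL2Basic.card_PSL2_odd F hodd
          rw [← Finite.one_lt_card_iff_nontrivial]
          have h5 : 4 * (4 ^ 2 - 1) ≤ Fintype.card F * (Fintype.card F ^ 2 - 1) :=
            Nat.mul_le_mul h3 (Nat.sub_le_sub_right (Nat.pow_le_pow_left h3 2) 1)
          omega
        exact hequiv he
      · have hnt : Nontrivial (alternatingGroup (Fin 7)) := inferInstance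
        obtain ⟨e⟩ := hequiv he
        exact alt_seven hna e h2 hh

end Cfsg.Agent.H506.PiAbDih
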