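import Mathlib
import Cfsg.Agent.H506.PiHomog
import Cfsg.Agent.S0199
import Cfsg.Agent.S0206

/-!
# Real elements in `π`-homogeneous groups
-/

set_option autoImplicit false

namespace Cfsg.Agent.H506.PiReal

open Subgroup Cfsg.Agent.H506.PiHomog
open scoped Pointwise

universe u

variable {π : Set ℕ} {G : Type*} [Group G] [Finite G]

/-- In a `π`-homogeneous group, an element inducing an automorphism of `π'`-order on a `π`-subgroup
centralizes it. -/
theorem Homog.of_order (hG : Homog π G) (H : Subgroup G) (hH : PiNum π (Nat.card H)) (g : G)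
    (hg : g ∈ normalizer (H : Set G)) (n : ℕ) (hn : PiNum πᶜ n) (hn2 : ∀ h ∈ H, g ^ n * h = h * g ^ n) :
    ∀ h ∈ H, g * h = h * g := by
  set f := H.normalizerMonoidHom with hf
  set g' : normalizer (H : Set G) := ⟨g, hg⟩ with hg'
  have h1 : f g' ^ n = 1 := by
    rw [← map_pow, ← MonoidHom.mem_ker, hf, Subgroup.normalizerMonoidHom_ker,
      Subgroup.mem_subgroupOf, Subgroup.mem_centralizer_iff]
    intro h hh
    exact (hn2 h hh).symm
  have h2 : PiNum πᶜ (orderOf (f g')) := hn.mono (orderOf_dvd_of_pow_eq_one h1)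
  obtain ⟨g2, hg2, ho⟩ := exists_lift f (f g') h2 ⟨g', rfl⟩
  have h3 : f g2 = 1 := by
    rw [← MonoidHom.mem_ker, hf, Subgroup.normalizerMonoidHom_ker,
      Subgroup.mem_subgroupOf, Subgroup.mem_centralizer_iff]
    intro h hh
    exact (hG H hH g2 g2.2 (by rwa [Subgroup.orderOf_coe]) h hh).symm
  rw [h3] at hg2
  have h4 : g' ∈ f.ker := hg2.symm
  rw [hf, Subgroup.normalizerMonoidHom_ker, Subgroup.mem_subgroupOf,
    Subgroup.mem_centralizer_iff] at h4
  intro h hh
  exact (h4 h hh).symm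

theorem mem_normalizer_of_forall {H : Subgroup G} {g : G} (h : ∀ y ∈ H, g * y * g⁻¹ ∈ H) :
    g ∈ normalizer (H : Set G) := by
  have hle : H.map (MulAut.conj g).toMonoidHom = H := by
    refine Subgroup.eq_of_le_of_card_ge ?_ ?_
    · rintro _ ⟨y, hy, rfl⟩
      exact h y hy
    · rw [Subgroup.card_map_of_injective (f := (MulAut.conj g).toMonoidHom) (MulAut.conj g).injective]
  rw [Subgroup.mem_normalizer_iff]
  intro y
  refine ⟨h y, fun hy => ?_⟩
  rw [← hle] at hy
  obtain ⟨z, hz, hzy⟩ := hy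
  have h5 : MulAut.conj g z = MulAut.conj g y := hzy
  rw [← (MulAut.conj g).injective h5]
  exact hz

theorem mem_normalizer_zpowers {y g : G} (k : ℤ) (h : g * y * g⁻¹ = y ^ k) :
    g ∈ normalizer ((zpowers y : Subgroup G) : Set G) := by
  apply mem_normalizer_of_forall
  rintro _ ⟨m, rfl⟩
  refine ⟨k * m, ?_⟩
  show y ^ (k * m) = g * y ^ m * g⁻¹
  rw [zpow_mul, ← h, conj_zpow]

/-- No element of prime order in `π` is real in a `π`-homogeneous group, if `2 ∉ π`. -/
theorem not_real (hG : Homog π G) (h2 : 2 ∉ π) {p : ℕ} (hp : p.Prime) (hpπ : p ∈ π) {y g : G}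
    (hy : orderOf y = p) (hg : g * y * g⁻¹ = y⁻¹) : False := by
  have hH : PiNum π (Nat.card (zpowers y)) := by
    rw [Nat.card_zpowers, hy]
    intro r hr hrp
    rwa [(Nat.prime_dvd_prime_iff_eq hr hp).1 hrp]
  have hgN : g ∈ normalizer ((zpowers y : Subgroup G) : Set G) :=
    mem_normalizer_zpowers (-1) (by rw [hg, zpow_neg_one])
  have hgg : g ^ 2 * y = y * g ^ 2 := by
    have h3 : g * y = y⁻¹ * g := by rw [← hg]; group
    have h4 : g * y⁻¹ = y * g := by
      have : (g * y * g⁻¹)⁻¹ = y := by rw [hg, inv_inv]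
      calc g * y⁻¹ = (g * y * g⁻¹)⁻¹ * g := by group
        _ = y * g := by rw [this]
    rw [pow_two, mul_assoc, h3, ← mul_assoc, h4, mul_assoc]
  have h5 := Homog.of_order hG (zpowers y) hH g hgN 2 (by
    intro r hr hr2
    rw [(Nat.prime_dvd_prime_iff_eq hr Nat.prime_two).1 hr2]
    exact h2) (by
    rintro _ ⟨m, rfl⟩
    exact (Commute.zpow_right (show Commute (g ^ 2) y from hgg) m)) y (mem_zpowers y)
  have h6 : y⁻¹ = y := by rw [← hg, h5]; group
  have h7 : y ^ 2 = 1 := by rw [pow_two]; nth_rw 1 [← h6]; group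
  have h8 : p ∣ 2 := hy ▸ orderOf_dvd_of_pow_eq_one h7
  rw [(Nat.prime_dvd_prime_iff_eq hp Nat.prime_two).1 h8] at hpπ
  exact h2 hpπ

/-- The version of `not_real` for elements of odd order with a prime divisor in `π`. -/
theorem not_real' (hG : Homog π G) (h2 : 2 ∉ π) {p : ℕ} (hp : p.Prime) (hpπ : p ∈ π) {y g : G}
    (hy : p ∣ orderOf y) (hg : g * y * g⁻¹ = y⁻¹) : False := by
  refine not_real hG h2 hp hpπ (y := y ^ (orderOf y / p)) (g := g) ?_ ?_
  · rw [orderOf_pow_of_dvd (Nat.div_ne_zero_iff_of_dvd hy |>.2 ⟨(orderOf_pos y).ne', hp.ne_zero⟩)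
      (Nat.div_dvd_of_dvd hy)]
    exact Nat.div_div_self hy (orderOf_pos y).ne'
  · rw [← conj_pow, hg, inv_pow]

/-- A simple `π`-homogeneous group of even order, `π` the set of all odd primes, is a `2`-group. -/
theorem isPGroup_two_of_simple [IsSimpleGroup G] (hG : Homog {2}ᶜ G) (h2 : 2 ∣ Nat.card G) :
    IsPGroup 2 G := by
  have : Fact (Nat.Prime 2) := ⟨Nat.prime_two⟩
  obtain ⟨t, ht⟩ := exists_prime_orderOf_dvd_card' (G := G) 2 h2
  have ht1 : t ≠ 1 := by rintro rfl; simp at ht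
  have htt : t * t = 1 := by rw [← pow_two, ← ht]; exact pow_orderOf_eq_one t
  have hti : t⁻¹ = t := by rw [inv_eq_iff_mul_eq_one]; exact htt
  have hX : IsPGroup 2 (zpowers t) := by
    rw [IsPGroup.iff_card]
    exact ⟨1, by rw [Nat.card_zpowers, ht, pow_one]⟩
  obtain ⟨N, hN, hN2, hle⟩ := Cfsg.Agent.S0199.result (p := 2) (zpowers t) hX (by
    intro g
    set s := g * t * g⁻¹ with hs
    have hs2 : orderOf s = 2 := by
      rw [hs, show g * t * g⁻¹ = MulAut.conj g t from rfl, MulEquiv.orderOf_eq, ht]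
    have hss : s * s = 1 := by rw [← pow_two, ← hs2]; exact pow_orderOf_eq_one s
    have hsi : s⁻¹ = s := by rw [inv_eq_iff_mul_eq_one]; exact hss
    have hmap : (zpowers t).map (MulAut.conj g).toMonoidHom = zpowers s := by
      rw [MonoidHom.map_zpowers]
      rfl
    rw [hmap]
    by_cases hst : s = t
    · rw [hst, sup_idem]
      exact hX
    · have hsup : zpowers t ⊔ zpowers s = Subgroup.closure ({t, s} : Set G) := by
        rw [Subgroup.zpowers_eq_closure, Subgroup.zpowers_eq_closure, ← Subgroup.closure_union]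
        rfl
      rw [hsup]
      obtain ⟨e⟩ := Cfsg.Agent.S0206.result t s ht hs2 (Ne.symm hst)
      have hodd : ∀ p : ℕ, p.Prime → p ∣ orderOf (t * s) → p = 2 := by
        intro p hp hd
        by_contra hp2
        refine not_real' hG (by simp) hp (show p ∈ ({2}ᶜ : Set ℕ) from hp2) (y := t * s) (g := t) hd ?_
        rw [mul_inv_rev, hsi, hti, ← mul_assoc, htt, one_mul]
      obtain ⟨k, hk⟩ : ∃ k, orderOf (t * s) = 2 ^ k :=
        ⟨_, Nat.eq_prime_pow_of_unique_prime_dvd (orderOf_pos _).ne' (fun {d} hd h => hodd d hd h)⟩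
      rw [IsPGroup.iff_card]
      refine ⟨k + 1, ?_⟩
      rw [Nat.card_congr e.toEquiv, DihedralGroup.nat_card, hk, pow_succ, mul_comm])
  have htop : N = ⊤ := by
    rcases hN.eq_bot_or_eq_top with h | h
    · exfalso
      apply ht1
      have := hle (mem_zpowers t)
      rwa [h, Subgroup.mem_bot] at this
    · exact h
  rw [htop] at hN2
  exact hN2.of_equiv Subgroup.topEquiv

end Cfsg.Agent.H506.PiReal
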