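import Mathlib
import Cfsg.Agent.H506.PiReal
import Cfsg.Agent.S0071
import Cfsg.Agent.S0086

/-!
# `π`-homogeneous groups: cyclic Sylow subgroups, and a single prime
-/

set_option autoImplicit false

namespace Cfsg.Agent.H506.PiCyc

open Subgroup Cfsg.Agent.H506.PiHomog
open scoped Pointwise

variable {π : Set ℕ} {G : Type*} [Group G] [Finite G]

theorem piNum_card_sylow {p : ℕ} [Fact p.Prime] (hpπ : p ∈ π) (P : Sylow p G) :
    PiNum π (Nat.card P) := by
  have hpp : p.Prime := Fact.out
  obtain ⟨k, hk⟩ := P.2.exists_card_eq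
  rw [hk]
  intro r hr hd
  rwa [(Nat.prime_dvd_prime_iff_eq hr hpp).1 (hr.dvd_of_dvd_pow hd)]

/-- In a `π`-homogeneous group, a cyclic Sylow subgroup for the smallest prime of `π` dividing the order is
in the centre of its normalizer. -/
theorem normalizer_le_centralizer (hG : Homog π G) {p : ℕ} [Fact p.Prime] (hpπ : p ∈ π)
    (hmin : ∀ r ∈ π, r.Prime → r ∣ Nat.card G → p ≤ r) (P : Sylow p G) (hP : IsCyclic P) :
    normalizer (P : Set G) ≤ centralizer (P : Set G) := by
  have hpp : p.Prime := Fact.out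
  obtain ⟨k, hk⟩ := P.2.exists_card_eq
  have h1 := relIndex_of_homog hG (P : Subgroup G) (piNum_card_sylow hpπ P)
  have key := card_dvd_of_injective _ (QuotientGroup.kerLift_injective P.normalizerMonoidHom)
  rw [normalizerMonoidHom_ker, ← index, ← relIndex] at key
  refine relIndex_eq_one.mp (Nat.eq_one_of_dvd_coprimes ?_ dvd_rfl key)
  rcases Nat.eq_zero_or_pos k with h0 | h0
  · rw [hP.card_mulAut, hk, h0, pow_zero, Nat.totient_one]
    apply Nat.coprime_one_right
  rw [hP.card_mulAut, hk, Nat.totient_prime_pow Fact.out h0]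
  have hnp : ¬ p ∣ (centralizer (P : Set G)).relIndex (normalizer (P : Set G)) := by
    intro h
    apply P.not_dvd_index
    exact (h.trans (relIndex_dvd_of_le_left _ P.le_centralizer)).trans
      (relIndex_dvd_index_of_le P.le_normalizer)
  refine Nat.coprime_of_dvd fun r hr hr1 hr2 => ?_
  have h2 : r ∈ π := h1 r hr hr1
  have h3 : r ∣ Nat.card G := (hr1.trans (relIndex_dvd_card _ _)).trans (card_subgroup_dvd_card _)
  have h4 := hmin r h2 hr h3
  rcases (Nat.Prime.dvd_mul hr).1 hr2 with h5 | h5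
  · rw [(Nat.prime_dvd_prime_iff_eq hr hpp).1 (hr.dvd_of_dvd_pow h5)] at hr1
    exact hnp hr1
  · have h6 := Nat.le_of_dvd (by have := hpp.two_le; omega) h5
    have := hpp.two_le
    omega

/-- A non-abelian simple `π`-homogeneous group of order divisible by a prime of `π` has a non-cyclic Sylow
`p`-subgroup, `p` the smallest such prime. -/
theorem false_of_cyclic_min [IsSimpleGroup G] (hna : ¬ IsMulCommutative G) (hG : Homog π G) {p : ℕ}
    [Fact p.Prime] (hpπ : p ∈ π) (hpG : p ∣ Nat.card G)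
    (hmin : ∀ r ∈ π, r.Prime → r ∣ Nat.card G → p ≤ r) (P : Sylow p G) (hP : IsCyclic P) : False := by
  have hle := normalizer_le_centralizer hG hpπ hmin P hP
  have hc := MonoidHom.ker_transferSylow_isComplement' P hle
  have hpp : p.Prime := Fact.out
  rcases (inferInstance : (MonoidHom.transferSylow P hle).ker.Normal).eq_bot_or_eq_top with h | h
  · rw [h] at hc
    have h1 : (P : Subgroup G) = ⊤ := by
      have := hc.index_eq_card
      rw [Subgroup.card_bot] at this
      exact Subgroup.index_eq_one.1 this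
    apply hna
    refine ⟨⟨fun a b => ?_⟩⟩
    have ha : a ∈ (P : Subgroup G) := by rw [h1]; trivial
    have hb : b ∈ (P : Subgroup G) := by rw [h1]; trivial
    have := (IsCyclic.isMulCommutative (α := P)).is_comm.comm (⟨a, ha⟩ : P) ⟨b, hb⟩
    exact congrArg Subtype.val this
  · rw [h] at hc
    have h1 : Nat.card (P : Subgroup G) = 1 := by
      have := hc.symm.index_eq_card
      rw [Subgroup.index_top] at this
      exact this.symm
    have h2 := P.card_eq_multiplicity
    rw [h1] at h2
    have h3 : (Nat.card G).factorization p ≠ 0 := by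
      have := hpp.factorization_pos_of_dvd (Nat.card_pos (α := G)).ne' hpG
      omega
    have h4 : 1 < p ^ (Nat.card G).factorization p := Nat.one_lt_pow h3 hpp.one_lt
    omega

/-- A non-abelian simple `π`-homogeneous group whose Sylow `p`-subgroups, `p ∈ π`, are all cyclic, is a
`π'`-group. -/
theorem piNum_of_cyclic [IsSimpleGroup G] (hna : ¬ IsMulCommutative G) (hG : Homog π G)
    (hcyc : ∀ (p : ℕ) [Fact p.Prime], p ∈ π → p ∣ Nat.card G → ∀ P : Sylow p G, IsCyclic P) :
    PiNum πᶜ (Nat.card G) := by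
  classical
  intro p hp hpd hpπ
  have hex : ∃ r, r ∈ π ∧ r.Prime ∧ r ∣ Nat.card G := ⟨p, hpπ, hp, hpd⟩
  obtain ⟨h1, h2, h3⟩ := Nat.find_spec hex
  have : Fact (Nat.find hex).Prime := ⟨h2⟩
  obtain ⟨P⟩ : Nonempty (Sylow (Nat.find hex) G) := inferInstance
  exact false_of_cyclic_min hna hG h1 h3
    (fun r hr1 hr2 hr3 => Nat.find_min' hex ⟨hr1, hr2, hr3⟩) P (hcyc _ h1 h3 P)

/-- A `π`-homogeneous group whose order has at most one prime divisor in `π` is `π'`-closed
(Frobenius). -/
theorem closedPr_of_single (hG : Homog π G) {p : ℕ} (hp : p.Prime)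
    (hone : ∀ r ∈ π, r.Prime → r ∣ Nat.card G → r = p) : ClosedPr π G := by
  by_cases hpπ : p ∈ π
  swap
  · apply closedPr_of_piNum'
    intro r hr hrd hrπ
    rw [hone r hrπ hr hrd] at hrπ
    exact hpπ hrπ
  have : Fact p.Prime := ⟨hp⟩
  obtain ⟨P⟩ : Nonempty (Sylow p G) := inferInstance
  have hmem : ∀ r : ℕ, r.Prime → r ∣ Nat.card G → (r ∈ π ↔ r = p) := fun r hr hrd =>
    ⟨fun h => hone r h hr hrd, fun h => h ▸ hpπ⟩
  have hord : ∀ x : G, (PiNum πᶜ (orderOf x) ↔ Nat.Coprime (orderOf x) p) := by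
    intro x
    rw [Nat.coprime_comm, Nat.Prime.coprime_iff_not_dvd hp]
    constructor
    · intro h hd
      exact h p hp hd hpπ
    · intro h r hr hrd hrπ
      rw [hone r hrπ hr (hrd.trans (orderOf_dvd_natCard x))] at hrd
      exact h hrd
  obtain ⟨N, hN, hc⟩ := (Cfsg.Agent.S0071.result P).2 (by
    intro Q hQ g hg ho
    rw [Subgroup.mem_centralizer_iff]
    intro h hh
    have hQπ : PiNum π (Nat.card Q) :=
      (piNum_card_sylow hpπ P).mono (Subgroup.card_dvd_of_le hQ)
    exact (hG Q hQπ g hg ((hord g).2 ho) h hh).symm)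
  exact ⟨N, fun x => by rw [Cfsg.Agent.S0086.result P N hc, hord]⟩

end Cfsg.Agent.H506.PiCyc
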