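import Mathlib
import Cfsg.Agent.H506.PiCyc
import Cfsg.Agent.ClassicalGeometry.PSL2Basic

/-!
# `PSL(2, q)` is not `π`-homogeneous for a set of odd primes `π` meeting its order
-/

set_option autoImplicit false

namespace Cfsg.Agent.H506.PiPSL

open Subgroup Cfsg.Agent.H506.PiHomog Cfsg.Agent.H506.PiReal Matrix

variable {F : Type*} [Field F]

local notation "SL2" => Matrix.SpecialLinearGroup (Fin 2) F

/-- A matrix of determinant `-1` conjugating `A` to its inverse. -/
theorem exists_pre (A : SL2) : ∃ x y z w : F, x * w - y * z = -1 ∧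
    !![x, y; z, w] * (A : Matrix (Fin 2) (Fin 2) F) = (A⁻¹ : SL2) * !![x, y; z, w] ∧ w = -x := by
  have hdet := A.2
  rw [Matrix.det_fin_two] at hdet
  set a := (A : Matrix (Fin 2) (Fin 2) F) 0 0 with ha
  set b := (A : Matrix (Fin 2) (Fin 2) F) 0 1 with hb
  set c := (A : Matrix (Fin 2) (Fin 2) F) 1 0 with hc
  set d := (A : Matrix (Fin 2) (Fin 2) F) 1 1 with hd
  have hA : (A : Matrix (Fin 2) (Fin 2) F) = !![a, b; c, d] := Matrix.eta_fin_two _
  have hAi : ((A⁻¹ : SL2) : Matrix (Fin 2) (Fin 2) F) = !![d, -b; -c, a] := by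
    rw [Matrix.SpecialLinearGroup.coe_inv, Matrix.adjugate_fin_two]
  rw [hA, hAi]
  by_cases hc0 : c = 0
  · by_cases hb0 : b = 0
    · refine ⟨0, 1, 1, 0, by ring, ?_, by ring⟩
      rw [hc0, hb0]
      ext i j; fin_cases i <;> fin_cases j <;> simp [Matrix.mul_apply, Fin.sum_univ_two]
    · refine ⟨1, 0, (d - a) / b, -1, by ring, ?_, by ring⟩
      rw [hc0]
      ext i j; fin_cases i <;> fin_cases j <;> simp [Matrix.mul_apply, Fin.sum_univ_two] <;> field_simp <;> ring
  · refine ⟨1, (d - a) / c, 0, -1, by ring, ?_, by ring⟩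
    ext i j; fin_cases i <;> fin_cases j <;> simp [Matrix.mul_apply, Fin.sum_univ_two] <;> field_simp <;> ring

/-- The form `x² + t x y + y²` represents `-1`. -/
theorem exists_form [Fintype F] (t : F) (h : (2 : F) = 0 ∨ t ^ 2 ≠ 4) :
    ∃ x y : F, x ^ 2 + t * x * y + y ^ 2 = -1 := by
  rcases h with h | h
  · refine ⟨1, 0, ?_⟩
    linear_combination h
  · by_cases h2 : (2 : F) = 0
    · refine ⟨1, 0, ?_⟩
      linear_combination h2
    have h4 : (4 : F) ≠ 0 := by
      intro h4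
      apply h2
      have : (2 : F) * 2 = 0 := by linear_combination h4
      rcases mul_eq_zero.1 this with h | h <;> exact h
    have hodd : Fintype.card F % 2 = 1 := by
      have := (Cfsg.Agent.ClassicalGeometry.PSL2Basic.two_ne_zero_iff_odd F).1 h2
      exact Nat.odd_iff.1 this
    set k : F := 1 - t ^ 2 / 4 with hk
    have hk0 : k ≠ 0 := by
      intro h0
      apply h
      rw [hk] at h0
      field_simp at h0
      linear_combination -h0
    obtain ⟨u, y, huy⟩ := FiniteField.exists_root_sum_quadratic (f := Polynomial.X ^ 2)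
      (g := Polynomial.C k * Polynomial.X ^ 2 + Polynomial.C 0 * Polynomial.X + Polynomial.C 1)
      (by simp) (by exact Polynomial.degree_quadratic hk0) hodd
    simp at huy
    refine ⟨u - t * y / 2, y, ?_⟩
    rw [hk] at huy
    field_simp
    field_simp at huy
    linear_combination huy

theorem exists_conj_inv [Fintype F] (A : SL2)
    (h : (2 : F) = 0 ∨ ((A : Matrix (Fin 2) (Fin 2) F) 0 0 + (A : Matrix (Fin 2) (Fin 2) F) 1 1) ^ 2 ≠ 4) :
    ∃ B : SL2, B * A * B⁻¹ = A⁻¹ := by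
  obtain ⟨x, y, z, w, hd, hc, -⟩ := exists_pre A
  set t : F := (A : Matrix (Fin 2) (Fin 2) F) 0 0 + (A : Matrix (Fin 2) (Fin 2) F) 1 1 with ht
  obtain ⟨u, v, huv⟩ := exists_form t h
  have hdet := A.2
  rw [Matrix.det_fin_two] at hdet
  set C : Matrix (Fin 2) (Fin 2) F := u • (1 : Matrix (Fin 2) (Fin 2) F) + v • (A : Matrix (Fin 2) (Fin 2) F)
    with hC
  have hCA : C * (A : Matrix (Fin 2) (Fin 2) F) = (A : Matrix (Fin 2) (Fin 2) F) * C := by
    rw [hC]
    simp [add_mul, mul_add]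
  have hCdet : C.det = -1 := by
    rw [← huv, hC, Matrix.det_fin_two, ht]
    simp
    linear_combination v ^ 2 * hdet
  set M : Matrix (Fin 2) (Fin 2) F := !![x, y; z, w] * C with hM
  have hMdet : M.det = 1 := by
    rw [hM, Matrix.det_mul, hCdet, Matrix.det_fin_two_of, hd]
    ring
  obtain ⟨B, hB⟩ : ∃ B : SL2, (B : Matrix (Fin 2) (Fin 2) F) = M := ⟨⟨M, hMdet⟩, rfl⟩
  refine ⟨B, ?_⟩
  rw [mul_inv_eq_iff_eq_mul]
  apply Subtype.ext
  rw [Matrix.SpecialLinearGroup.coe_mul, Matrix.SpecialLinearGroup.coe_mul, hB]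
  rw [hM, mul_assoc, hCA, ← mul_assoc, hc, mul_assoc]


local notation "PSL2" => Matrix.ProjectiveSpecialLinearGroup (Fin 2) F

/-- The projection to `PSL`. -/
def pr (F : Type*) [Field F] : Matrix.SpecialLinearGroup (Fin 2) F →* Matrix.ProjectiveSpecialLinearGroup (Fin 2) F :=
  QuotientGroup.mk' _

theorem pr_surjective : Function.Surjective (pr F) := QuotientGroup.mk'_surjective _

theorem pr_eq_one_iff {A : SL2} : pr F A = 1 ↔ A = 1 ∨ A = -1 := by
  rw [← Cfsg.Agent.ClassicalGeometry.PSL2Basic.mem_center_SL2_iff]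
  exact QuotientGroup.eq_one_iff A

/-- `(A ∓ 1)² = 0` when `tr A = ± 2`. -/
theorem pow_char_of_trace {r : ℕ} [Fact r.Prime] [CharP F r] (hr2 : r ≠ 2) (A : SL2)
    (h : ((A : Matrix (Fin 2) (Fin 2) F) 0 0 + (A : Matrix (Fin 2) (Fin 2) F) 1 1) ^ 2 = 4) :
    pr F A ^ r = 1 := by
  have hr : r.Prime := Fact.out
  have hodd : Odd r := hr.odd_of_ne_two hr2
  rw [← map_pow, pr_eq_one_iff]
  have hdet := A.2
  rw [Matrix.det_fin_two] at hdet
  set a := (A : Matrix (Fin 2) (Fin 2) F) 0 0 with ha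
  set b := (A : Matrix (Fin 2) (Fin 2) F) 0 1 with hb
  set c := (A : Matrix (Fin 2) (Fin 2) F) 1 0 with hc
  set d := (A : Matrix (Fin 2) (Fin 2) F) 1 1 with hd
  have hA : (A : Matrix (Fin 2) (Fin 2) F) = !![a, b; c, d] := Matrix.eta_fin_two _
  obtain ⟨e, he, hee⟩ : ∃ e : F, (e = 1 ∨ e = -1) ∧ a + d = 2 * e := by
    have h1 : (a + d - 2) * (a + d + 2) = 0 := by linear_combination h
    rcases mul_eq_zero.1 h1 with h2 | h2
    · exact ⟨1, Or.inl rfl, by linear_combination h2⟩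
    · exact ⟨-1, Or.inr rfl, by linear_combination h2⟩
  have he2 : e * e = 1 := by rcases he with rfl | rfl <;> ring
  have hnil : ((A : Matrix (Fin 2) (Fin 2) F) - e • (1 : Matrix (Fin 2) (Fin 2) F)) ^ 2 = 0 := by
    rw [hA, pow_two]
    ext i j
    fin_cases i <;> fin_cases j <;> simp [Matrix.mul_apply, Fin.sum_univ_two]
    · linear_combination a * hee - hdet + he2
    · linear_combination b * hee
    · linear_combination c * hee
    · linear_combination d * hee - hdet + he2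
  have hcom : Commute (A : Matrix (Fin 2) (Fin 2) F) (e • (1 : Matrix (Fin 2) (Fin 2) F)) := by
    show _ * _ = _ * _
    simp
  have hpow : (A : Matrix (Fin 2) (Fin 2) F) ^ r = (e • (1 : Matrix (Fin 2) (Fin 2) F)) ^ r := by
    have h1 : ((A : Matrix (Fin 2) (Fin 2) F) - e • (1 : Matrix (Fin 2) (Fin 2) F)) ^ r =
        (A : Matrix (Fin 2) (Fin 2) F) ^ r - (e • (1 : Matrix (Fin 2) (Fin 2) F)) ^ r :=
      sub_pow_char_of_commute r hcom
    have h2 : ((A : Matrix (Fin 2) (Fin 2) F) - e • (1 : Matrix (Fin 2) (Fin 2) F)) ^ r = 0 := by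
      obtain ⟨k, hk⟩ := Nat.exists_eq_add_of_le hr.two_le
      rw [hk, pow_add, hnil, zero_mul]
    rw [h2] at h1
    exact (sub_eq_zero.1 h1.symm)
  have her : e ^ r = e := by
    rcases he with rfl | rfl
    · simp
    · rw [hodd.neg_one_pow]
  have hpow2 : ((A ^ r : SL2) : Matrix (Fin 2) (Fin 2) F) = e • (1 : Matrix (Fin 2) (Fin 2) F) := by
    rw [Matrix.SpecialLinearGroup.coe_pow, hpow, smul_pow, one_pow, her]
  rcases he with rfl | rfl
  · left
    apply Subtype.ext
    rw [hpow2]; simp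
  · right
    apply Subtype.ext
    rw [hpow2, Matrix.SpecialLinearGroup.coe_neg]; simp

/-- The diagonal element. -/
def dg (l : Fˣ) : Matrix.SpecialLinearGroup (Fin 2) F :=
  ⟨!![(l : F), 0; 0, ((l⁻¹ : Fˣ) : F)], by rw [Matrix.det_fin_two_of]; simp⟩

theorem dg_mul (l m : Fˣ) : dg (l * m) = dg l * dg m := by
  apply Subtype.ext
  rw [Matrix.SpecialLinearGroup.coe_mul]
  show !![((l * m : Fˣ) : F), 0; 0, (((l * m)⁻¹ : Fˣ) : F)] =
    !![(l : F), 0; 0, ((l⁻¹ : Fˣ) : F)] * !![(m : F), 0; 0, ((m⁻¹ : Fˣ) : F)]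
  ext i j
  fin_cases i <;> fin_cases j <;> simp [Matrix.mul_apply, Fin.sum_univ_two]
  ring

theorem dg_one : dg (1 : Fˣ) = 1 := by
  apply Subtype.ext
  show !![((1 : Fˣ) : F), 0; 0, (((1 : Fˣ)⁻¹ : Fˣ) : F)] = (1 : Matrix (Fin 2) (Fin 2) F)
  ext i j
  fin_cases i <;> fin_cases j <;> simp

/-- the diagonal torus -/
def dgHom (F : Type*) [Field F] : Fˣ →* Matrix.SpecialLinearGroup (Fin 2) F where
  toFun := dg
  map_one' := dg_one
  map_mul' := dg_mul

/-- the upper unipotent element -/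
def un (x : F) : Matrix.SpecialLinearGroup (Fin 2) F :=
  ⟨!![1, x; 0, 1], by rw [Matrix.det_fin_two_of]; ring⟩

theorem un_add (x y : F) : un (x + y) = un x * un y := by
  apply Subtype.ext
  rw [Matrix.SpecialLinearGroup.coe_mul]
  show !![1, x + y; 0, 1] = !![1, x; 0, 1] * !![1, y; 0, 1]
  ext i j
  fin_cases i <;> fin_cases j <;> simp [Matrix.mul_apply, Fin.sum_univ_two]
  ring

theorem un_zero : un (0 : F) = 1 := by
  apply Subtype.ext
  show !![1, (0 : F); 0, 1] = (1 : Matrix (Fin 2) (Fin 2) F)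
  ext i j
  fin_cases i <;> fin_cases j <;> simp

/-- the upper unipotent group -/
def unHom (F : Type*) [Field F] : Multiplicative F →* Matrix.SpecialLinearGroup (Fin 2) F where
  toFun x := un x.toAdd
  map_one' := un_zero
  map_mul' x y := un_add x.toAdd y.toAdd

theorem dg_mul_un (l : Fˣ) (x : F) : dg l * un x = un (l ^ 2 * x) * dg l := by
  apply Subtype.ext
  rw [Matrix.SpecialLinearGroup.coe_mul, Matrix.SpecialLinearGroup.coe_mul]
  show !![(l : F), 0; 0, ((l⁻¹ : Fˣ) : F)] * !![1, x; 0, 1] =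
    !![1, (l : F) ^ 2 * x; 0, 1] * !![(l : F), 0; 0, ((l⁻¹ : Fˣ) : F)]
  ext i j
  fin_cases i <;> fin_cases j <;> simp [Matrix.mul_apply, Fin.sum_univ_two]
  field_simp

/-- **Theorem.** -/
theorem psl_two [Fintype F] (h4 : 4 ≤ Fintype.card F) {π : Set ℕ} (h2 : 2 ∉ π)
    (hG : Homog π PSL2) : PiNum πᶜ (Nat.card PSL2) := by
  classical
  intro p hp hpd hpπ
  have : Fact p.Prime := ⟨hp⟩
  obtain ⟨y, hy⟩ := exists_prime_orderOf_dvd_card' (G := PSL2) p hpd
  obtain ⟨A, rfl⟩ := pr_surjective y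
  -- real elements
  have hreal : ∀ B : SL2, ((2 : F) = 0 ∨
      ((B : Matrix (Fin 2) (Fin 2) F) 0 0 + (B : Matrix (Fin 2) (Fin 2) F) 1 1) ^ 2 ≠ 4) →
      ∃ g : PSL2, g * pr F B * g⁻¹ = (pr F B)⁻¹ := by
    intro B hB
    obtain ⟨C, hC⟩ := exists_conj_inv B hB
    exact ⟨pr F C, by rw [← map_mul, ← map_inv, ← map_mul, hC, map_inv]⟩
  by_cases hcase : (2 : F) = 0 ∨
      ((A : Matrix (Fin 2) (Fin 2) F) 0 0 + (A : Matrix (Fin 2) (Fin 2) F) 1 1) ^ 2 ≠ 4
  · obtain ⟨g, hg⟩ := hreal A hcase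
    exact not_real hG h2 hp hpπ hy hg
  push Not at hcase
  obtain ⟨h20, htr⟩ := hcase
  -- the characteristic
  obtain ⟨r, hr⟩ := CharP.exists F
  have hrp : r.Prime := CharP.char_is_prime F r
  have : Fact r.Prime := ⟨hrp⟩
  have hr2 : r ≠ 2 := by
    rintro rfl
    exact h20 CharTwo.two_eq_zero
  have hpr : p = r := by
    have h1 := pow_char_of_trace hr2 A htr
    have h3 : orderOf (pr F A) ∣ r := orderOf_dvd_of_pow_eq_one h1
    rw [hy] at h3
    exact (Nat.prime_dvd_prime_iff_eq hp hrp).1 h3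
  subst hpr
  have hodd : Odd (Fintype.card F) := (Cfsg.Agent.ClassicalGeometry.PSL2Basic.two_ne_zero_iff_odd F).1 h20
  obtain ⟨m, hm⟩ := hodd
  have hm2 : 2 ≤ m := by omega
  obtain ⟨s, hs, hsm⟩ := Nat.exists_prime_and_dvd (n := m) (by omega)
  -- an element of order `2 s` in the multiplicative group
  have hcard : Nat.card Fˣ = 2 * m := by
    rw [Nat.card_units, Nat.card_eq_fintype_card, hm]
    omega
  obtain ⟨ζ, hζ⟩ := IsCyclic.exists_generator (α := Fˣ)
  have hζo : orderOf ζ = 2 * m := by rw [← hcard, orderOf_eq_card_of_forall_mem_zpowers hζ]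
  obtain ⟨l, hl⟩ : ∃ l : Fˣ, orderOf l = 2 * s := by
    obtain ⟨c, hc⟩ := hsm
    have hc0 : c ≠ 0 := by rintro rfl; omega
    refine ⟨ζ ^ c, ?_⟩
    rw [orderOf_pow_of_dvd hc0 (by rw [hζo, hc]; exact ⟨2 * s, by ring⟩), hζo, hc]
    have : 2 * (s * c) = 2 * s * c := by ring
    rw [this, Nat.mul_div_cancel _ (Nat.pos_of_ne_zero hc0)]
  have hls : l ^ s ≠ 1 := by
    intro h
    have := orderOf_dvd_of_pow_eq_one h
    rw [hl] at this
    have := Nat.le_of_dvd hs.pos this
    have := hs.pos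
    omega
  have hl2 : l ^ 2 ≠ 1 := by
    intro h
    have := orderOf_dvd_of_pow_eq_one h
    rw [hl] at this
    have := Nat.le_of_dvd (by norm_num) this
    have := hs.two_le
    omega
  have hls2 : (l ^ s) ^ 2 = 1 := by rw [← pow_mul, mul_comm s 2, ← hl]; exact pow_orderOf_eq_one l
  have hlsm : ((l ^ s : Fˣ) : F) = -1 := by
    have h1 : (((l ^ s : Fˣ) : F) - 1) * (((l ^ s : Fˣ) : F) + 1) = 0 := by
      have : (((l ^ s) ^ 2 : Fˣ) : F) = 1 := by rw [hls2]; rfl
      rw [Units.val_pow_eq_pow_val] at this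
      linear_combination this
    rcases mul_eq_zero.1 h1 with h3 | h3
    · exact absurd (Units.ext (by rw [Units.val_one]; linear_combination h3)) hls
    · linear_combination h3
  have hl20 : (l : F) ^ 2 ≠ 1 := fun h => hl2 (Units.ext (by simpa using h))
  have hl0 : (l : F) ≠ 0 := l.ne_zero
  have hdgs : pr F (dg l) ^ s = 1 := by
    rw [← map_pow, pr_eq_one_iff]
    right
    have h1 : dg l ^ s = dg (l ^ s) := ((dgHom F).map_pow l s).symm
    rw [h1]
    apply Subtype.ext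
    rw [Matrix.SpecialLinearGroup.coe_neg]
    show !![((l ^ s : Fˣ) : F), 0; 0, (((l ^ s)⁻¹ : Fˣ) : F)] = -(1 : Matrix (Fin 2) (Fin 2) F)
    have h3 : (((l ^ s)⁻¹ : Fˣ) : F) = -1 := by rw [Units.val_inv_eq_inv_val, hlsm]; norm_num
    rw [hlsm, h3]
    ext i j
    fin_cases i <;> fin_cases j <;> simp
  have hsπ : s ∉ π := by
    intro hsπ
    have : Fact s.Prime := ⟨hs⟩
    have ho : orderOf (pr F (dg l)) = s := by
      apply orderOf_eq_prime hdgs
      intro h
      rw [pr_eq_one_iff] at h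
      apply hl20
      rcases h with h | h
      · have := congrArg (fun B : SL2 => (B : Matrix (Fin 2) (Fin 2) F) 0 0) h
        change (l : F) = _ at this
        simp at this
        rw [this]; norm_num
      · have := congrArg (fun B : SL2 => (B : Matrix (Fin 2) (Fin 2) F) 0 0) h
        change (l : F) = _ at this
        simp at this
        rw [this]; simp
    obtain ⟨g, hg⟩ := hreal (dg l) (Or.inr (by
      show ((l : F) + ((l⁻¹ : Fˣ) : F)) ^ 2 ≠ 4
      intro h
      apply hl20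
      rw [Units.val_inv_eq_inv_val] at h
      have h5 : ((l : F) ^ 2 - 1) ^ 2 = 0 := by
        field_simp at h
        linear_combination h
      have h6 := pow_eq_zero_iff (two_ne_zero) |>.1 h5
      linear_combination h6))
    exact not_real hG h2 hs hsπ ho hg
  -- the unipotent group
  set H : Subgroup PSL2 := ((pr F).comp (unHom F)).range with hH
  have hHπ : PiNum π (Nat.card H) := by
    have h1 : Nat.card H ∣ Nat.card (Multiplicative F) := Subgroup.card_range_dvd _
    have h3 : Nat.card (Multiplicative F) = Fintype.card F := by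
      rw [Nat.card_congr Multiplicative.toAdd, Nat.card_eq_fintype_card]
    rw [h3] at h1
    obtain ⟨n, -, hn⟩ := FiniteField.card F p
    rw [hn] at h1
    intro t ht htd
    rw [(Nat.prime_dvd_prime_iff_eq ht hp).1 (ht.dvd_of_dvd_pow (htd.trans h1))]
    exact hpπ
  have hnorm : pr F (dg l) ∈ normalizer (H : Set PSL2) := by
    apply mem_normalizer_of_forall
    rintro _ ⟨x, rfl⟩
    refine ⟨Multiplicative.ofAdd ((l : F) ^ 2 * x.toAdd), ?_⟩
    show pr F (un ((l : F) ^ 2 * x.toAdd)) = pr F (dg l) * pr F (un x.toAdd) * (pr F (dg l))⁻¹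
    rw [← map_mul, ← map_inv, ← map_mul, dg_mul_un, mul_inv_cancel_right]
  have hcomm := Homog.of_order hG H hHπ (pr F (dg l)) hnorm s (by
    intro t ht htd
    rw [(Nat.prime_dvd_prime_iff_eq ht hs).1 htd]
    exact hsπ) (by
    intro h _
    rw [hdgs]; simp) (pr F (un 1)) ⟨Multiplicative.ofAdd 1, rfl⟩
  rw [← map_mul, dg_mul_un, ← map_mul] at hcomm
  have h7 : pr F (un ((l : F) ^ 2 * 1) * dg l * (un 1 * dg l)⁻¹) = 1 := by
    rw [map_mul, map_inv, hcomm, mul_inv_cancel]
  have h8 : un ((l : F) ^ 2 * 1) * dg l * (un 1 * dg l)⁻¹ = un ((l : F) ^ 2 * 1) * (un 1)⁻¹ := by group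
  have h9 : (un (1 : F))⁻¹ = un (-1) := by
    rw [inv_eq_iff_mul_eq_one, ← un_add]
    rw [add_neg_cancel]
    exact un_zero
  rw [h8, h9, ← un_add, pr_eq_one_iff] at h7
  rcases h7 with h7 | h7
  · have := congrArg (fun B : SL2 => (B : Matrix (Fin 2) (Fin 2) F) 0 1) h7
    change (l : F) ^ 2 * 1 + -1 = _ at this
    simp at this
    apply hl20
    linear_combination this
  · have := congrArg (fun B : SL2 => (B : Matrix (Fin 2) (Fin 2) F) 0 0) h7
    change (1 : F) = _ at this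
    simp at this
    apply h20
    linear_combination this

end Cfsg.Agent.H506.PiPSL
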